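import Mathlib
import Cfsg.Agent.Lib.Helper75.LW.Defs

/-!
# S0746 (project LW): packages [K3] and [K4]
-/

set_option autoImplicit false

namespace Cfsg.Agent.Lib.Helper38.LW

open Cfsg.Agent.Lib.Helper75.LW

universe u

theorem lw_exists_notMem {α : Type u} [Fintype α] [DecidableEq α] (s : Finset α)
    (h : s.card < Fintype.card α) : ∃ y, y ∉ s := by
  by_contra hc
  push Not at hc
  have : s = Finset.univ := Finset.eq_univ_iff_forall.mpr hc
  rw [this, Finset.card_univ] at h
  exact lt_irrefl _ h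

theorem lw_arith4 (m c r d : ℕ) (hm : 6 ≤ m) (hmc : m = c * r) (hr : 2 ≤ r) (hd : 2 ∣ d)
    (hc : 0 < c) (h : 24 * c = m * (m - 1) * d) : False := by
  obtain ⟨e, rfl⟩ := hd
  have h24 : 24 = r * (m - 1) * (2 * e) := by
    have h1 : c * 24 = c * (r * (m - 1) * (2 * e)) := by
      rw [hmc] at h
      rw [hmc]
      calc c * 24 = 24 * c := by ring
        _ = c * r * (c * r - 1) * (2 * e) := h
        _ = c * (r * (c * r - 1) * (2 * e)) := by ring
    exact Nat.eq_of_mul_eq_mul_left hc h1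
  have hm1 : 5 ≤ m - 1 := by omega
  have he : 1 ≤ e := by
    rcases Nat.eq_zero_or_pos e with h0 | h0
    · rw [h0] at h24; simp at h24
    · exact h0
  have hr2 : r ≤ 2 := by
    by_contra hr3
    push Not at hr3
    have : 3 * 5 * 2 ≤ r * (m - 1) * (2 * e) := by
      apply Nat.mul_le_mul (Nat.mul_le_mul hr3 hm1)
      omega
    omega
  have hr' : r = 2 := by omega
  subst hr'
  have he1 : e ≤ 1 := by
    by_contra he2
    push Not at he2
    have : 2 * 5 * 4 ≤ 2 * (m - 1) * (2 * e) := by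
      apply Nat.mul_le_mul (Nat.mul_le_mul le_rfl hm1)
      omega
    omega
  have he' : e = 1 := by omega
  subst he'
  omega

theorem pkgK4 (hCntT : PkgCntT.{u}) (hCntH : PkgCntH.{u}) (hFree : PkgFree.{u}) (hNT : PkgNT.{u})
    (hTransp : PkgTransp.{u}) : PkgK4.{u} := by
  intro α _ _ G hR hTriv hNoInv
  have hn : 8 ≤ Fintype.card α := hR.kn
  have hT2 : HT G 2 := hR.tr
  have hnT3 : ¬ HT G 3 := hR.ntr
  have hH4 : HH G 4 := hR.h2
  -- points
  obtain ⟨p, -⟩ := lw_exists_notMem (∅ : Finset α) (by rw [Finset.card_empty]; omega)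
  obtain ⟨q, hq⟩ := lw_exists_notMem ({p} : Finset α) (by rw [Finset.card_singleton]; omega)
  have hpq : p ≠ q := by
    intro h; apply hq; rw [h]; exact Finset.mem_singleton_self q
  have hs2 : ({p, q} : Finset α).card = 2 := Finset.card_pair hpq
  obtain ⟨y1, hy1⟩ := lw_exists_notMem ({p, q} : Finset α) (by rw [hs2]; omega)
  have hy1p : y1 ≠ p := fun h => hy1 (by rw [h]; simp)
  have hy1q : y1 ≠ q := fun h => hy1 (by rw [h]; simp)
  obtain ⟨y2, hy2⟩ := lw_exists_notMem ({p, q, y1} : Finset α) (by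
    have : ({p, q, y1} : Finset α).card ≤ 3 := Finset.card_le_three
    omega)
  have hy2p : y2 ≠ p := fun h => hy2 (by rw [h]; simp)
  have hy2q : y2 ≠ q := fun h => hy2 (by rw [h]; simp)
  have hy21 : y2 ≠ y1 := fun h => hy2 (by rw [h]; simp)
  -- the involution
  obtain ⟨a, haG, haa, hap, haq, -⟩ :=
    hTransp G 2 {p, q} p q hs2 hT2 hNoInv (by simp) (by simp) hpq
  have ha1 : a ≠ 1 := by
    intro h
    rw [h] at hap
    exact hpq hap
  have haay : ∀ b, a (a b) = b := by
    intro b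
    have := congrArg (fun f : Equiv.Perm α => f b) haa
    simpa using this
  obtain ⟨y, hyp, hyq, hay⟩ : ∃ y, y ≠ p ∧ y ≠ q ∧ a y ≠ y := by
    by_cases h1 : a y1 = y1
    · by_cases h2 : a y2 = y2
      · exfalso
        apply ha1
        apply hNoInv {y1, y2} (Finset.card_pair (Ne.symm hy21)) a haG haa
        intro b hb
        rw [Finset.mem_insert, Finset.mem_singleton] at hb
        rcases hb with rfl | rfl
        · exact h1
        · exact h2
      · exact ⟨y2, hy2p, hy2q, h2⟩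
    · exact ⟨y1, hy1p, hy1q, h1⟩
  have hayp : a y ≠ p := by
    intro h
    have := haay y
    rw [h, hap] at this
    exact hyq this.symm
  have hayq : a y ≠ q := by
    intro h
    have := haay y
    rw [h, haq] at this
    exact hyp this.symm
  obtain ⟨Δ, hΔ⟩ : ∃ Δ : Finset α, Δ = {p, q, y, a y} := ⟨_, rfl⟩
  have hΔ4 : Δ.card = 4 := by
    rw [hΔ, Finset.card_insert_of_notMem, Finset.card_insert_of_notMem, Finset.card_pair]
    · exact Ne.symm hay
    · simp [Ne.symm hyq, Ne.symm hayq]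
    · simp [hpq, Ne.symm hyp, Ne.symm hayp]
  have hfwd : ∀ b, b ∈ Δ → a b ∈ Δ := by
    intro b hb
    rw [hΔ] at hb ⊢
    simp only [Finset.mem_insert, Finset.mem_singleton] at hb ⊢
    rcases hb with rfl | rfl | rfl | rfl
    · right; left; exact hap
    · left; exact haq
    · right; right; right; rfl
    · right; right; left; exact haay _
  have haSS : a ∈ SS G Δ := by
    refine ⟨haG, fun b => ⟨fun h => ?_, hfwd b⟩⟩
    have := hfwd _ h
    rwa [haay] at this
  have hd2 : 2 ∣ Nat.card (SS G Δ) := by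
    have : Fact (Nat.Prime 2) := ⟨Nat.prime_two⟩
    have ho : orderOf a = 2 := orderOf_eq_prime (by rw [pow_two]; exact haa) ha1
    have := Subgroup.orderOf_dvd_natCard (SS G Δ) haSS
    rwa [ho] at this
  -- counting
  have e1 := hCntT G 2 {p, q} hs2 hT2
  have e2 := hCntH G 4 Δ hΔ4 hH4
  have e3 := hFree G {p, q} (by rw [hs2]; exact hTriv)
  rw [hs2] at e3
  have e4 := hNT G 2 {p, q} hs2 hT2 hTriv hnT3
  obtain ⟨n, hn'⟩ : ∃ n, n = Fintype.card α := ⟨_, rfl⟩
  rw [← hn'] at e1 e2 e3 e4 hn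
  obtain ⟨c, hc⟩ : ∃ c, c = Nat.card (PS G {p, q}) := ⟨_, rfl⟩
  obtain ⟨d, hd⟩ : ∃ d, d = Nat.card (SS G Δ) := ⟨_, rfl⟩
  rw [← hc] at e1 e3 e4
  rw [← hd] at e2 hd2
  have hcpos : 0 < c := by rw [hc]; exact Nat.card_pos
  obtain ⟨r, hr⟩ := e3
  have hr2 : 2 ≤ r := by
    rcases Nat.lt_or_ge r 2 with h | h
    · exfalso
      interval_cases r
      · omega
      · apply e4; rw [hr]; ring
    · exact h
  have hdf2 : n.descFactorial 2 = n * (n - 1) := by
    simp [Nat.descFactorial]
    ring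
  have hdf4 : n.descFactorial 4 = n * (n - 1) * ((n - 2) * (n - 3)) := by
    simp [Nat.descFactorial]
    ring
  have hch : n.descFactorial 4 = 24 * n.choose 4 := by
    rw [Nat.descFactorial_eq_factorial_mul_choose]
    rfl
  have hkey : 24 * c = (n - 2) * (n - 2 - 1) * d := by
    have h1 : n * (n - 1) * (24 * c) = n * (n - 1) * ((n - 2) * (n - 2 - 1) * d) := by
      have hA : 24 * Nat.card ↥G = n * (n - 1) * (24 * c) := by rw [e1, hdf2]; ring
      have hB : 24 * Nat.card ↥G = n * (n - 1) * ((n - 2) * (n - 3) * d) := by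
        rw [e2, ← mul_assoc, ← hch, hdf4]; ring
      have h3 : n - 2 - 1 = n - 3 := by omega
      rw [h3, ← hA, ← hB]
    have hpos : 0 < n * (n - 1) := Nat.mul_pos (by omega) (by omega)
    exact Nat.eq_of_mul_eq_mul_left hpos h1
  exact lw_arith4 (n - 2) c r d (by omega) hr hr2 hd2 hcpos hkey

end Cfsg.Agent.Lib.Helper38.LW
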