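import Mathlib
import Cfsg.Agent.Lib.Helper75.LW.Defs
import Cfsg.Agent.Lib.Helper38.LW.K4

/-!
# S0746 (project LW): package [K3]
-/

set_option autoImplicit false

namespace Cfsg.Agent.Lib.Helper38.LW

open Cfsg.Agent.Lib.Helper75.LW

universe u

theorem pkgK3 (hCntH : PkgCntH.{u}) : PkgK3.{u} := by
  intro α _ _ G hR hTriv _
  have hn : 6 ≤ Fintype.card α := hR.kn
  have hnT2 : ¬ HT G 2 := hR.ntr
  have hH2 : HH G 2 := hR.h1
  have hH3 : HH G 3 := hR.h2
  -- (a) no involution
  have hnoinv : ∀ u ∈ G, u * u = 1 → u = 1 := by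
    intro u huG huu
    by_contra hu1
    obtain ⟨p, hp⟩ : ∃ p, u p ≠ p := by
      by_contra hc
      push Not at hc
      exact hu1 (Equiv.ext hc)
    have huup : u (u p) = p := by
      have := congrArg (fun f : Equiv.Perm α => f p) huu
      simpa using this
    have hpair : ({p, u p} : Finset α).card = 2 := Finset.card_pair (Ne.symm hp)
    have hA : ∀ x0 x1 : α, x0 ≠ x1 → ∃ g ∈ G, g x0 = p ∧ g x1 = u p := by
      intro x0 x1 hx
      obtain ⟨g, hgG, hg⟩ := hH2 {x0, x1} {p, u p} (Finset.card_pair hx) hpair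
      have h0 : g x0 ∈ ({p, u p} : Finset α) := (hg x0).mp (by simp)
      have h1 : g x1 ∈ ({p, u p} : Finset α) := (hg x1).mp (by simp)
      have hne : g x0 ≠ g x1 := fun h => hx (g.injective h)
      rw [Finset.mem_insert, Finset.mem_singleton] at h0 h1
      rcases h0 with h0 | h0
      · rcases h1 with h1 | h1
        · exact absurd (h0.trans h1.symm) hne
        · exact ⟨g, hgG, h0, h1⟩
      · rcases h1 with h1 | h1
        · refine ⟨u * g, G.mul_mem huG hgG, ?_, ?_⟩
          · rw [Equiv.Perm.mul_apply, h0, huup]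
          · rw [Equiv.Perm.mul_apply, h1]
        · exact absurd (h0.trans h1.symm) hne
    apply hnT2
    intro x y
    have hx : x 0 ≠ x 1 := fun h => by
      have := x.injective h
      exact absurd this (by decide)
    have hy : y 0 ≠ y 1 := fun h => by
      have := y.injective h
      exact absurd this (by decide)
    obtain ⟨gx, hgx, hgx0, hgx1⟩ := hA (x 0) (x 1) hx
    obtain ⟨gy, hgy, hgy0, hgy1⟩ := hA (y 0) (y 1) hy
    refine ⟨gy⁻¹ * gx, G.mul_mem (G.inv_mem hgy) hgx, fun i => ?_⟩
    fin_cases i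
    · show (gy⁻¹ * gx) (x 0) = y 0
      rw [Equiv.Perm.mul_apply, hgx0, Equiv.Perm.inv_eq_iff_eq, hgy0]
    · show (gy⁻¹ * gx) (x 1) = y 1
      rw [Equiv.Perm.mul_apply, hgx1, Equiv.Perm.inv_eq_iff_eq, hgy1]
  -- points
  obtain ⟨p, -⟩ := lw_exists_notMem (∅ : Finset α) (by rw [Finset.card_empty]; omega)
  obtain ⟨q, hq⟩ := lw_exists_notMem ({p} : Finset α) (by rw [Finset.card_singleton]; omega)
  have hpq : p ≠ q := by
    intro h; apply hq; rw [h]; exact Finset.mem_singleton_self q
  have hs2 : ({p, q} : Finset α).card = 2 := Finset.card_pair hpq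
  obtain ⟨y, hy⟩ := lw_exists_notMem ({p, q} : Finset α) (by rw [hs2]; omega)
  have hs3 : ({y, p, q} : Finset α).card = 3 := by
    rw [Finset.card_insert_of_notMem hy, hs2]
  -- (b) the setwise stabiliser of `{p, q}` is trivial
  have hSS : SS G {p, q} = ⊥ := by
    rw [eq_bot_iff]
    intro g hg
    rw [Subgroup.mem_bot]
    obtain ⟨hgG, hg'⟩ := hg
    have h0 : g p ∈ ({p, q} : Finset α) := (hg' p).mpr (by simp)
    have h1 : g q ∈ ({p, q} : Finset α) := (hg' q).mpr (by simp)
    have hne : g p ≠ g q := fun h => hpq (g.injective h)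
    rw [Finset.mem_insert, Finset.mem_singleton] at h0 h1
    rcases h0 with h0 | h0
    · rcases h1 with h1 | h1
      · exact absurd (h0.trans h1.symm) hne
      · apply hTriv {p, q} hs2 g hgG
        intro b hb
        rw [Finset.mem_insert, Finset.mem_singleton] at hb
        rcases hb with rfl | rfl
        · exact h0
        · exact h1
    · rcases h1 with h1 | h1
      · have hgg : g * g = 1 := by
          apply hTriv {p, q} hs2 (g * g) (G.mul_mem hgG hgG)
          intro b hb
          rw [Finset.mem_insert, Finset.mem_singleton] at hb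
          rcases hb with rfl | rfl
          · rw [Equiv.Perm.mul_apply, h0, h1]
          · rw [Equiv.Perm.mul_apply, h1, h0]
        exact hnoinv g hgG hgg
      · exact absurd (h0.trans h1.symm) hne
  -- (c) counting
  have e2 := hCntH G 2 {p, q} hs2 hH2
  have e3 := hCntH G 3 {y, p, q} hs3 hH3
  rw [hSS, Subgroup.card_bot, mul_one] at e2
  obtain ⟨n, hn'⟩ : ∃ n, n = Fintype.card α := ⟨_, rfl⟩
  rw [← hn'] at e2 e3 hn
  obtain ⟨d, hd⟩ : ∃ d, d = Nat.card (SS G {y, p, q}) := ⟨_, rfl⟩
  rw [← hd] at e3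
  have hdpos : 0 < d := by rw [hd]; exact Nat.card_pos
  have hch : n.choose 3 * 3 = n.choose 2 * (n - 2) := Nat.choose_succ_right_eq n 2
  have hc2 : 0 < n.choose 2 := Nat.choose_pos (by omega)
  have h1 : n.choose 2 * 3 = n.choose 2 * ((n - 2) * d) := by
    calc n.choose 2 * 3 = Nat.card ↥G * 3 := by rw [e2]
      _ = n.choose 3 * 3 * d := by rw [e3]; ring
      _ = n.choose 2 * ((n - 2) * d) := by rw [hch]; ring
  have h2 : 3 = (n - 2) * d := Nat.eq_of_mul_eq_mul_left hc2 h1
  have h3 : 4 * 1 ≤ (n - 2) * d := Nat.mul_le_mul (by omega) hdpos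
  omega

end Cfsg.Agent.Lib.Helper38.LW
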